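import Cfsg.Agent.S1062
import Cfsg.Agent.S1063
import Cfsg.Agent.S1064
import Cfsg.Agent.S1065
import Cfsg.Agent.S1066

/-!
# TEAM RV, row R5 for `F₄, E₆, ²E₆, E₇, E₈`: the 3-parts of the orders (helper475)

`a3 q` is the exponent of 3 in `q ^ 2 - 1`.  For `3 ∤ q`:
`3 ^ (4 a + 2)` divides `|F₄(q)|`, `3 ^ (7 a + 4)` divides `|E₇(q)|`, `3 ^ (8 a + 5)` divides `|E₈(q)|`,
`3 ^ (6 a + 3)` divides `|E₆(q)|` if `3 ∣ q - 1` and `3 ^ (4 a + 2)` does otherwise; the same for `²E₆(q)` with `q + 1`.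
-/

set_option autoImplicit false

namespace Cfsg.Agent.H475.RV

open Cfsg

/-- the exponent of 3 in `q ^ 2 - 1` -/
def a3 (q : ℕ) : ℕ := (q ^ 2 - 1).factorization 3

theorem three_dvd_sq {q : ℕ} (h3 : ¬ 3 ∣ q) : 3 ∣ q ^ 2 - 1 := by
  have h1 : 1 ≤ q ^ 2 := Nat.one_le_pow _ _ (Nat.pos_of_ne_zero (by rintro rfl; exact h3 (dvd_zero 3)))
  have h2 : q % 3 = 1 ∨ q % 3 = 2 := by omega
  have h4 : q ^ 2 % 3 = 1 := by
    rcases h2 with h2 | h2 <;> simp [Nat.pow_mod, h2]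
  omega

theorem one_le_a3 {q : ℕ} (hq : 2 ≤ q) (h3 : ¬ 3 ∣ q) : 1 ≤ a3 q := by
  unfold a3
  have h1 : q ^ 2 - 1 ≠ 0 := by
    have : 2 ^ 2 ≤ q ^ 2 := Nat.pow_le_pow_left hq 2
    omega
  rw [← Nat.prime_three.pow_dvd_iff_le_factorization h1, pow_one]
  exact three_dvd_sq h3

theorem pow_sub_ne {q n : ℕ} (hq : 2 ≤ q) (hn : n ≠ 0) : q ^ n - 1 ≠ 0 := by
  have : 1 < q ^ n := Nat.one_lt_pow hn (by omega)
  omega

/-- lifting the exponent, even exponents -/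
theorem fac_even {q n : ℕ} (hq : 2 ≤ q) (h3 : ¬ 3 ∣ q) (hn : n ≠ 0) :
    (q ^ (2 * n) - 1).factorization 3 = a3 q + n.factorization 3 := by
  have : Fact (Nat.Prime 3) := ⟨Nat.prime_three⟩
  have h1 : 1 < q ^ 2 := Nat.one_lt_pow (by norm_num) (by omega)
  have h2 := padicValNat.pow_sub_pow (p := 3) (x := q ^ 2) (y := 1) (by decide) h1 (three_dvd_sq h3)
    (fun h => h3 (Nat.prime_three.dvd_of_dvd_pow h)) hn
  rw [one_pow, ← pow_mul] at h2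
  unfold a3
  rw [Nat.factorization_def _ Nat.prime_three, Nat.factorization_def _ Nat.prime_three,
    Nat.factorization_def _ Nat.prime_three]
  exact h2

theorem fac_sub {q n : ℕ} (hq : 2 ≤ q) (h3 : 3 ∣ q - 1) (hn : n ≠ 0) :
    (q ^ n - 1).factorization 3 = a3 q + n.factorization 3 := by
  have : Fact (Nat.Prime 3) := ⟨Nat.prime_three⟩
  have hq3 : ¬ 3 ∣ q := by omega
  have h2 := padicValNat.pow_sub_pow (p := 3) (x := q) (y := 1) (by decide) (by omega) h3 hq3 hn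
  rw [one_pow] at h2
  have h4 : a3 q = (q - 1).factorization 3 := by
    unfold a3
    have h5 : q ^ 2 - 1 = (q + 1) * (q - 1) := by
      have := Nat.sq_sub_sq q 1
      simpa using this
    rw [h5, Nat.factorization_mul (by omega) (by omega), Finsupp.add_apply,
      Nat.factorization_eq_zero_of_not_dvd (by omega : ¬ 3 ∣ q + 1), zero_add]
  rw [h4, Nat.factorization_def _ Nat.prime_three, Nat.factorization_def _ Nat.prime_three,
    Nat.factorization_def _ Nat.prime_three]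
  exact h2

theorem fac_add {q n : ℕ} (hq : 2 ≤ q) (h3 : 3 ∣ q + 1) (hn : Odd n) :
    (q ^ n + 1).factorization 3 = a3 q + n.factorization 3 := by
  have : Fact (Nat.Prime 3) := ⟨Nat.prime_three⟩
  have hq3 : ¬ 3 ∣ q := by omega
  have h2 := padicValNat.pow_add_pow (p := 3) (x := q) (y := 1) (by decide) h3 hq3 hn
  rw [one_pow] at h2
  have h4 : a3 q = (q + 1).factorization 3 := by
    unfold a3
    have h5 : q ^ 2 - 1 = (q + 1) * (q - 1) := by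
      have := Nat.sq_sub_sq q 1
      simpa using this
    rw [h5, Nat.factorization_mul (by omega) (by omega), Finsupp.add_apply,
      Nat.factorization_eq_zero_of_not_dvd (by omega : ¬ 3 ∣ q - 1), add_zero]
  rw [h4, Nat.factorization_def _ Nat.prime_three, Nat.factorization_def _ Nat.prime_three,
    Nat.factorization_def _ Nat.prime_three]
  exact h2

theorem fac3 {n k m : ℕ} (h : n = 3 ^ k * m) (hm : ¬ 3 ∣ m) : n.factorization 3 = k := by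
  have hm0 : m ≠ 0 := by rintro rfl; exact hm (dvd_zero 3)
  rw [h, Nat.factorization_mul (pow_ne_zero _ (by norm_num)) hm0, Finsupp.add_apply,
    Nat.factorization_eq_zero_of_not_dvd hm, Nat.Prime.factorization_pow Nat.prime_three, Finsupp.single_eq_same, add_zero]

theorem e2 {q : ℕ} (_ : 2 ≤ q) (_ : ¬ 3 ∣ q) : (q ^ 2 - 1).factorization 3 = a3 q := rfl
theorem e6 {q : ℕ} (hq : 2 ≤ q) (h3 : ¬ 3 ∣ q) : (q ^ 6 - 1).factorization 3 = a3 q + 1 := by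
  rw [fac_even (n := 3) hq h3 (by norm_num), fac3 (n := 3) (k := 1) (m := 1) (by norm_num) (by norm_num)]
theorem e8 {q : ℕ} (hq : 2 ≤ q) (h3 : ¬ 3 ∣ q) : (q ^ 8 - 1).factorization 3 = a3 q := by
  rw [fac_even (n := 4) hq h3 (by norm_num), fac3 (n := 4) (k := 0) (m := 4) (by norm_num) (by norm_num), add_zero]
theorem e10 {q : ℕ} (hq : 2 ≤ q) (h3 : ¬ 3 ∣ q) : (q ^ 10 - 1).factorization 3 = a3 q := by
  rw [fac_even (n := 5) hq h3 (by norm_num), fac3 (n := 5) (k := 0) (m := 5) (by norm_num) (by norm_num), add_zero]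
theorem e12 {q : ℕ} (hq : 2 ≤ q) (h3 : ¬ 3 ∣ q) : (q ^ 12 - 1).factorization 3 = a3 q + 1 := by
  rw [fac_even (n := 6) hq h3 (by norm_num), fac3 (n := 6) (k := 1) (m := 2) (by norm_num) (by norm_num)]
theorem e14 {q : ℕ} (hq : 2 ≤ q) (h3 : ¬ 3 ∣ q) : (q ^ 14 - 1).factorization 3 = a3 q := by
  rw [fac_even (n := 7) hq h3 (by norm_num), fac3 (n := 7) (k := 0) (m := 7) (by norm_num) (by norm_num), add_zero]
theorem e18 {q : ℕ} (hq : 2 ≤ q) (h3 : ¬ 3 ∣ q) : (q ^ 18 - 1).factorization 3 = a3 q + 2 := by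
  rw [fac_even (n := 9) hq h3 (by norm_num), fac3 (n := 9) (k := 2) (m := 1) (by norm_num) (by norm_num)]
theorem e20 {q : ℕ} (hq : 2 ≤ q) (h3 : ¬ 3 ∣ q) : (q ^ 20 - 1).factorization 3 = a3 q := by
  rw [fac_even (n := 10) hq h3 (by norm_num), fac3 (n := 10) (k := 0) (m := 10) (by norm_num) (by norm_num), add_zero]
theorem e24 {q : ℕ} (hq : 2 ≤ q) (h3 : ¬ 3 ∣ q) : (q ^ 24 - 1).factorization 3 = a3 q + 1 := by
  rw [fac_even (n := 12) hq h3 (by norm_num), fac3 (n := 12) (k := 1) (m := 4) (by norm_num) (by norm_num)]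
theorem e30 {q : ℕ} (hq : 2 ≤ q) (h3 : ¬ 3 ∣ q) : (q ^ 30 - 1).factorization 3 = a3 q + 1 := by
  rw [fac_even (n := 15) hq h3 (by norm_num), fac3 (n := 15) (k := 1) (m := 5) (by norm_num) (by norm_num)]

theorem pow_fac_dvd {n k : ℕ} (h : k ≤ n.factorization 3) : 3 ^ k ∣ n :=
  (pow_dvd_pow 3 h).trans (Nat.ordProj_dvd n 3)

theorem pow_a3_dvd (q : ℕ) : 3 ^ a3 q ∣ q ^ 2 - 1 := pow_fac_dvd le_rfl

universe u
variable {F : Type u} [Field F] [Fintype F] {q : ℕ}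

theorem two_le (hq : Fintype.card F = q) : 2 ≤ q := by rw [← hq]; exact Fintype.one_lt_card

theorem dvd_F4 (hq : Fintype.card F = q) (h3 : ¬ 3 ∣ q) : 3 ^ (4 * a3 q + 2) ∣ Nat.card ↥(Lie.chevF4.group F) := by
  have h2 := two_le hq
  rw [S1062.result hq]
  have h := mul_dvd_mul (mul_dvd_mul (mul_dvd_mul (mul_dvd_mul (one_dvd (q ^ 24)) (pow_fac_dvd (e2 h2 h3).ge))
    (pow_fac_dvd (e6 h2 h3).ge)) (pow_fac_dvd (e8 h2 h3).ge)) (pow_fac_dvd (e12 h2 h3).ge)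
  refine dvd_trans (dvd_of_eq ?_) h
  rw [one_mul, ← pow_add, ← pow_add, ← pow_add]
  congr 1
  ring

theorem dvd_E7 (hq : Fintype.card F = q) (h3 : ¬ 3 ∣ q) : 3 ^ (7 * a3 q + 4) ∣ Nat.card ↥(Lie.chevE7.group F) := by
  have h2 := two_le hq
  have h := mul_dvd_mul (mul_dvd_mul (mul_dvd_mul (mul_dvd_mul (mul_dvd_mul (mul_dvd_mul (mul_dvd_mul
    (one_dvd (q ^ 63)) (pow_fac_dvd (e2 h2 h3).ge))
    (pow_fac_dvd (e6 h2 h3).ge)) (pow_fac_dvd (e8 h2 h3).ge)) (pow_fac_dvd (e10 h2 h3).ge))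
    (pow_fac_dvd (e12 h2 h3).ge)) (pow_fac_dvd (e14 h2 h3).ge)) (pow_fac_dvd (e18 h2 h3).ge)
  rw [← S1064.result hq] at h
  have h4 : 3 ^ (7 * a3 q + 4) ∣ Nat.gcd 2 (q - 1) * Nat.card ↥(Lie.chevE7.group F) := by
    refine dvd_trans (dvd_of_eq ?_) h
    rw [one_mul, ← pow_add, ← pow_add, ← pow_add, ← pow_add, ← pow_add, ← pow_add]
    congr 1
    ring
  refine (Nat.Coprime.pow_left _ ?_).dvd_of_dvd_mul_left h4
  have h5 : Nat.gcd 2 (q - 1) ∣ 2 := Nat.gcd_dvd_left _ _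
  exact Nat.Coprime.coprime_dvd_right h5 (by norm_num)

theorem dvd_E8 (hq : Fintype.card F = q) (h3 : ¬ 3 ∣ q) : 3 ^ (8 * a3 q + 5) ∣ Nat.card ↥(Lie.chevE8.group F) := by
  have h2 := two_le hq
  rw [S1065.result hq]
  have h := mul_dvd_mul (mul_dvd_mul (mul_dvd_mul (mul_dvd_mul (mul_dvd_mul (mul_dvd_mul (mul_dvd_mul (mul_dvd_mul
    (one_dvd (q ^ 120)) (pow_fac_dvd (e2 h2 h3).ge))
    (pow_fac_dvd (e8 h2 h3).ge)) (pow_fac_dvd (e12 h2 h3).ge)) (pow_fac_dvd (e14 h2 h3).ge))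
    (pow_fac_dvd (e18 h2 h3).ge)) (pow_fac_dvd (e20 h2 h3).ge)) (pow_fac_dvd (e24 h2 h3).ge))
    (pow_fac_dvd (e30 h2 h3).ge)
  refine dvd_trans (dvd_of_eq ?_) h
  rw [one_mul, ← pow_add, ← pow_add, ← pow_add, ← pow_add, ← pow_add, ← pow_add, ← pow_add]
  congr 1
  ring

theorem dvd_E6_of_dvd (hq : Fintype.card F = q) (h3 : 3 ∣ q - 1) :
    3 ^ (6 * a3 q + 3) ∣ Nat.card ↥(Lie.chevE6.group F) := by
  have h2 := two_le hq
  have hq3 : ¬ 3 ∣ q := by omega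
  have e5 : (q ^ 5 - 1).factorization 3 = a3 q := by
    rw [fac_sub h2 h3 (by norm_num), fac3 (n := 5) (k := 0) (m := 5) (by norm_num) (by norm_num), add_zero]
  have e9 : (q ^ 9 - 1).factorization 3 = a3 q + 2 := by
    rw [fac_sub h2 h3 (by norm_num), fac3 (n := 9) (k := 2) (m := 1) (by norm_num) (by norm_num)]
  have h := mul_dvd_mul (mul_dvd_mul (mul_dvd_mul (mul_dvd_mul (mul_dvd_mul (mul_dvd_mul
    (one_dvd (q ^ 36)) (pow_fac_dvd (e2 h2 hq3).ge)) (pow_fac_dvd e5.ge))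
    (pow_fac_dvd (e6 h2 hq3).ge)) (pow_fac_dvd (e8 h2 hq3).ge)) (pow_fac_dvd e9.ge))
    (pow_fac_dvd (e12 h2 hq3).ge)
  rw [← S1063.result hq] at h
  have hg : Nat.gcd 3 (q - 1) = 3 := Nat.gcd_eq_left h3
  rw [hg] at h
  have h4 : 3 * 3 ^ (6 * a3 q + 3) ∣ 3 * Nat.card ↥(Lie.chevE6.group F) := by
    refine dvd_trans (dvd_of_eq ?_) h
    rw [one_mul, ← pow_add, ← pow_add, ← pow_add, ← pow_add, ← pow_add, ← pow_succ']
    congr 1
    ring
  exact Nat.dvd_of_mul_dvd_mul_left (by norm_num) h4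

theorem dvd_E6_of_not (hq : Fintype.card F = q) (h3 : ¬ 3 ∣ q - 1) (hq3 : ¬ 3 ∣ q) :
    3 ^ (4 * a3 q + 2) ∣ Nat.card ↥(Lie.chevE6.group F) := by
  have h2 := two_le hq
  have h := mul_dvd_mul (mul_dvd_mul (mul_dvd_mul (mul_dvd_mul (mul_dvd_mul (mul_dvd_mul
    (one_dvd (q ^ 36)) (pow_fac_dvd (e2 h2 hq3).ge)) (one_dvd (q ^ 5 - 1)))
    (pow_fac_dvd (e6 h2 hq3).ge)) (pow_fac_dvd (e8 h2 hq3).ge)) (one_dvd (q ^ 9 - 1)))
    (pow_fac_dvd (e12 h2 hq3).ge)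
  rw [← S1063.result hq] at h
  have hg : Nat.gcd 3 (q - 1) = 1 := (Nat.Prime.coprime_iff_not_dvd Nat.prime_three).2 h3
  rw [hg, one_mul (Nat.card ↥(Lie.chevE6.group F))] at h
  refine dvd_trans (dvd_of_eq ?_) h
  rw [one_mul, mul_one, mul_one, ← pow_add, ← pow_add, ← pow_add]
  congr 1
  ring

theorem dvd_TE6_of_dvd (hq : IsPrimePow q) (hF : Fintype.card F = q ^ 2) (h3 : 3 ∣ q + 1) :
    3 ^ (6 * a3 q + 3) ∣ Nat.card ↥(Lie.twistedE6 F q) := by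
  have h2 := hq.two_le
  have hq3 : ¬ 3 ∣ q := by omega
  have e5 : (q ^ 5 + 1).factorization 3 = a3 q := by
    rw [fac_add h2 h3 (by decide), fac3 (n := 5) (k := 0) (m := 5) (by norm_num) (by norm_num), add_zero]
  have e9 : (q ^ 9 + 1).factorization 3 = a3 q + 2 := by
    rw [fac_add h2 h3 (by decide), fac3 (n := 9) (k := 2) (m := 1) (by norm_num) (by norm_num)]
  have h := mul_dvd_mul (mul_dvd_mul (mul_dvd_mul (mul_dvd_mul (mul_dvd_mul (mul_dvd_mul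
    (one_dvd (q ^ 36)) (pow_fac_dvd (e2 h2 hq3).ge)) (pow_fac_dvd e5.ge))
    (pow_fac_dvd (e6 h2 hq3).ge)) (pow_fac_dvd (e8 h2 hq3).ge)) (pow_fac_dvd e9.ge))
    (pow_fac_dvd (e12 h2 hq3).ge)
  rw [← S1066.result hq hF] at h
  have hg : Nat.gcd 3 (q + 1) = 3 := Nat.gcd_eq_left h3
  rw [hg] at h
  have h4 : 3 * 3 ^ (6 * a3 q + 3) ∣ 3 * Nat.card ↥(Lie.twistedE6 F q) := by
    refine dvd_trans (dvd_of_eq ?_) h
    rw [one_mul, ← pow_add, ← pow_add, ← pow_add, ← pow_add, ← pow_add, ← pow_succ']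
    congr 1
    ring
  exact Nat.dvd_of_mul_dvd_mul_left (by norm_num) h4

theorem dvd_TE6_of_not (hq : IsPrimePow q) (hF : Fintype.card F = q ^ 2) (h3 : ¬ 3 ∣ q + 1) (hq3 : ¬ 3 ∣ q) :
    3 ^ (4 * a3 q + 2) ∣ Nat.card ↥(Lie.twistedE6 F q) := by
  have h2 := hq.two_le
  have h := mul_dvd_mul (mul_dvd_mul (mul_dvd_mul (mul_dvd_mul (mul_dvd_mul (mul_dvd_mul
    (one_dvd (q ^ 36)) (pow_fac_dvd (e2 h2 hq3).ge)) (one_dvd (q ^ 5 + 1)))
    (pow_fac_dvd (e6 h2 hq3).ge)) (pow_fac_dvd (e8 h2 hq3).ge)) (one_dvd (q ^ 9 + 1)))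
    (pow_fac_dvd (e12 h2 hq3).ge)
  rw [← S1066.result hq hF] at h
  have hg : Nat.gcd 3 (q + 1) = 1 := (Nat.Prime.coprime_iff_not_dvd Nat.prime_three).2 h3
  rw [hg, one_mul (Nat.card ↥(Lie.twistedE6 F q))] at h
  refine dvd_trans (dvd_of_eq ?_) h
  rw [one_mul, mul_one, mul_one, ← pow_add, ← pow_add, ← pow_add]
  congr 1
  ring

/-! ### the forms used in row R5 -/

theorem dvd_F4_six {F : Type u} [Field F] [Fintype F] (h3 : ¬ 3 ∣ Fintype.card F) :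
    3 ^ 6 ∣ Nat.card ↥(Lie.chevF4.group F) := by
  have h := one_le_a3 (two_le (F := F) rfl) h3
  exact (pow_dvd_pow 3 (by omega)).trans (dvd_F4 rfl h3)

theorem dvd_E7_ten {F : Type u} [Field F] [Fintype F] (h3 : ¬ 3 ∣ Fintype.card F) :
    3 ^ 10 ∣ Nat.card ↥(Lie.chevE7.group F) := by
  have h := one_le_a3 (two_le (F := F) rfl) h3
  exact (pow_dvd_pow 3 (by omega)).trans (dvd_E7 rfl h3)

theorem dvd_E8_eleven {F : Type u} [Field F] [Fintype F] (h3 : ¬ 3 ∣ Fintype.card F) :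
    3 ^ 11 ∣ Nat.card ↥(Lie.chevE8.group F) := by
  have h := one_le_a3 (two_le (F := F) rfl) h3
  exact (pow_dvd_pow 3 (by omega)).trans (dvd_E8 rfl h3)

end Cfsg.Agent.H475.RV
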